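import Mathlib

set_option autoImplicit false

namespace Cfsg.Agent.Lib.HJOrder.A5

abbrev AFive := alternatingGroup (Fin 5)

theorem a5_card : Nat.card AFive = 60 := by
  rw [Nat.card_eq_fintype_card]
  decide +kernel

theorem a5_five : ∃ σ : AFive, σ ≠ 1 ∧ σ ^ 5 = 1 := by decide +kernel

theorem a5_orders : ∀ x : AFive, x = 1 ∨ x ^ 2 = 1 ∨ x ^ 3 = 1 ∨ x ^ 5 = 1 := by decide +kernel

theorem a5_pair : ∀ k : AFive, k ^ 2 = 1 → k ≠ 1 → ∃ k' : AFive, k' ^ 2 = 1 ∧ k * k' ≠ 1 ∧ (k * k') ^ 5 = 1 := by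
  decide +kernel

theorem a5_inv_count : Fintype.card {k : AFive // k ^ 2 = 1 ∧ k ≠ 1} = 15 := by
  decide +kernel

theorem a5_pairs_count : Fintype.card {p : AFive × AFive // (p.1 ^ 2 = 1 ∧ p.1 ≠ 1) ∧ (p.2 ^ 2 = 1 ∧ p.2 ≠ 1) ∧ (p.1 * p.2) ^ 15 = 1} = 195 := by
  decide +kernel

end Cfsg.Agent.Lib.HJOrder.A5
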