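import Cfsg.Agent.Lib.PGroups.ExtraGauss
import Cfsg.Agent.Lib.LargeExtra.Duality

set_option autoImplicit false
set_option linter.unusedSectionVars false
set_option linter.unusedVariables false
set_option linter.style.longLine false

namespace Cfsg.Agent.Lib.HJOrder.Basic

open Subgroup Cfsg.Agent.Lib.PGroups.ExtraGauss Cfsg.Agent.Lib.LargeExtra
open scoped commutatorElement

variable {P : Type*} [Group P] [Finite P] {z : P}

/-- The number of elements with square `1`. -/
noncomputable abbrev NN (P : Type*) [Group P] : ℕ := Nat.card {x : P // x ^ 2 = 1}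

theorem sqz (hS : QSetting P z) : z * z = 1 := by rw [← sq, hS.z_sq]

theorem center_eq (hS : QSetting P z) (hcc : Nat.card (center P) = 2) {a : P} (ha : a ∈ center P) :
    a = 1 ∨ a = z := by
  classical
  by_contra hne
  push Not at hne
  have h3 : ((({1, z, a} : Finset P) : Set P)).ncard ≤ ((center P : Subgroup P) : Set P).ncard := by
    apply Set.ncard_le_ncard _ (Set.toFinite _)
    intro x hx
    simp only [Finset.coe_insert, Finset.coe_singleton, Set.mem_insert_iff, Set.mem_singleton_iff] at hx
    rcases hx with rfl | rfl | rfl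
    · exact one_mem _
    · exact hS.z_center
    · exact ha
  rw [Set.ncard_coe_finset] at h3
  have h4 : ((center P : Subgroup P) : Set P).ncard = 2 := by
    rw [← Nat.card_coe_set_eq]; exact hcc
  have h5 : ({1, z, a} : Finset P).card = 3 := by
    rw [Finset.card_insert_of_notMem, Finset.card_insert_of_notMem, Finset.card_singleton]
    · simpa using hne.2.symm
    · simp only [Finset.mem_insert, Finset.mem_singleton, not_or]
      exact ⟨hS.z_ne.symm, hne.1.symm⟩
  omega

/-- The count of elements with square one in a `QSetting` of order 32. -/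
theorem nn_cases (hS : QSetting P z) (hcc : Nat.card (center P) = 2) (hc : Nat.card P = 32) :
    NN P = 12 ∨ NN P = 20 := by
  classical
  cases nonempty_fintype P
  cases nonempty_fintype (center P)
  have h1 := gauss_eq P
  have h2 := hS.gauss_sq
  have h3 : ∑ u : center P, sgn (u : P) = 2 := by
    have h4 : ∀ u : center P, sgn (u : P) = 1 := by
      intro u
      have h5 : (u : P) ^ 2 = 1 := by
        rcases center_eq hS hcc u.2 with h | h <;> rw [h]
        · simp
        · exact hS.z_sq
      rw [sgn, h5, val_one]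
    simp only [h4, Finset.sum_const, Finset.card_univ]
    rw [nsmul_eq_mul, mul_one, ← Nat.card_eq_fintype_card, hcc]
    norm_num
  rw [h3, ← Nat.card_eq_fintype_card (α := P), hc] at h2
  rw [← Nat.card_eq_fintype_card (α := P), hc] at h1
  have h6 : gauss P * gauss P = 8 * 8 := by rw [h2]; norm_num
  rcases mul_self_eq_mul_self_iff.mp h6 with h | h
  · right
    have : (2 * (NN P : ℤ)) = 40 := by
      have h7 : gauss P = 2 * (NN P : ℤ) - ((32 : ℕ) : ℤ) := h1
      push_cast at h7
      linarith
    omega
  · left
    have : (2 * (NN P : ℤ)) = 24 := by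
      have h7 : gauss P = 2 * (NN P : ℤ) - ((32 : ℕ) : ℤ) := h1
      push_cast at h7
      linarith
    omega

/-- Commutators of `x` with a subgroup. -/
theorem eps_mul_right (hS : QSetting P z) (x a b : P) : eps x (a * b) = eps x a * eps x b := by
  rw [hS.eps_symm, hS.eps_mul_left, hS.eps_symm a, hS.eps_symm b]

/-- The Setting of Duality. -/
theorem toSetting (hS : QSetting P z) (hcc : Nat.card (center P) = 2) : Duality.Setting P z where
  c_ne := hS.z_ne
  c_sq := sqz hS
  c_central := fun a => (mem_center_iff.mp hS.z_center a)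
  comm := fun a b => hS.comm_mem a b
  rad := fun a ha => center_eq hS hcc (mem_center_iff.mpr fun b => (ha b).symm)

/-- A large elementary abelian subgroup forces 20 solutions. -/
theorem nn_of_e8 (hS : QSetting P z) (hcc : Nat.card (center P) = 2) (hc : Nat.card P = 32)
    (A : Subgroup P) (hzA : z ∈ A) (hA2 : ∀ a ∈ A, a ^ 2 = 1) (hcard : 8 ≤ Nat.card A) :
    NN P = 20 := by
  classical
  cases nonempty_fintype P
  cases nonempty_fintype A
  have hcomm : ∀ a ∈ A, ∀ b ∈ A, a * b = b * a := by
    intro a ha b hb
    have h1 := hA2 _ (mul_mem ha hb)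
    have h2 := hA2 _ ha
    have h3 := hA2 _ hb
    rw [sq] at h1 h2 h3
    calc a * b = a * (a * b * (a * b)) * b := by rw [h1]; simp
      _ = (a * a) * b * a * (b * b) := by group
      _ = b * a := by rw [h2, h3]; simp
  have hle : A ≤ centralizer (A : Set P) := by
    intro a ha
    rw [mem_centralizer_iff]
    intro b hb
    exact hcomm b hb a ha
  have hd := (toSetting hS hcc).card_mul_card_centralizer A hzA
  rw [hc] at hd
  have hle2 : Nat.card A ≤ Nat.card (centralizer (A : Set P)) := Subgroup.card_le_of_le hle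
  have hA8 : Nat.card A = 8 := by nlinarith
  have hC8 : Nat.card (centralizer (A : Set P)) = 8 := by
    rw [hA8] at hd; omega
  have hAeq : A = centralizer (A : Set P) :=
    Subgroup.eq_of_le_of_card_ge hle (by rw [hA8, hC8])
  -- the Gauss identity
  have hg : (Nat.card A : ℤ) * gauss P = (Nat.card A : ℤ) * Nat.card A := by
    have h1 : ∀ a : A, gauss P = ∑ x : P, sgn x * eps x (a : P) := by
      intro a
      unfold gauss
      rw [← Equiv.sum_comp (Equiv.mulRight (a : P))]
      apply Finset.sum_congr rfl
      intro x _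
      simp only [Equiv.coe_mulRight]
      rw [hS.sgn_mul]
      have : sgn (a : P) = 1 := by rw [sgn, hA2 a a.2, val_one]
      rw [this, mul_one]
    have h2 : (Fintype.card A : ℤ) * gauss P = ∑ a : A, ∑ x : P, sgn x * eps x (a : P) := by
      rw [← Finset.sum_congr rfl (fun a _ => h1 a)]
      simp
    have h3 : ∀ x : P, ∑ a : A, sgn x * eps x (a : P) = if x ∈ A then (Fintype.card A : ℤ) else 0 := by
      intro x
      split_ifs with hx
      · have : ∀ a : A, sgn x * eps x (a : P) = 1 := by
          intro a
          have h4 : sgn x = 1 := by rw [sgn, hA2 x hx, val_one]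
          have h5 : ⁅x, (a : P)⁆ = 1 :=
            commutatorElement_eq_one_iff_mul_comm.mpr (hcomm x hx a a.2)
          rw [h4, eps, h5, val_one, mul_one]
        simp [this]
      · rw [← Finset.mul_sum]
        have hex : ∃ a₀ : A, ⁅x, (a₀ : P)⁆ ≠ 1 := by
          by_contra hall
          push Not at hall
          apply hx
          have hxc : x ∈ centralizer (A : Set P) := by
            rw [mem_centralizer_iff]
            intro b hb
            exact (commutatorElement_eq_one_iff_mul_comm.mp (hall ⟨b, hb⟩)).symm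
          rwa [← hAeq] at hxc
        obtain ⟨a₀, ha₀⟩ := hex
        rw [sum_eq_zero_of_character (fun a : A => eps x (a : P)) (a₀ := a₀), mul_zero]
        · intro a b
          exact eps_mul_right hS x a b
        · exact val_of_ne ha₀
    rw [Nat.card_eq_fintype_card (α := A), h2, Finset.sum_comm]
    simp_rw [h3]
    rw [Finset.sum_ite, Finset.sum_const_zero, add_zero, Finset.sum_const, nsmul_eq_mul]
    congr 1
    have : (Finset.univ.filter (· ∈ A)).card = Fintype.card A := by
      rw [Fintype.card_subtype]
    rw [this]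
  rw [hA8] at hg
  have hg8 : gauss P = 8 := by
    have : (8 : ℤ) ≠ 0 := by norm_num
    push_cast at hg
    exact mul_left_cancel₀ this hg
  have h1 := gauss_eq P
  rw [← Nat.card_eq_fintype_card (α := P), hc, hg8] at h1
  have h7 : (8 : ℤ) = 2 * (NN P : ℤ) - ((32 : ℕ) : ℤ) := h1
  push_cast at h7
  omega


/-- The elements moved into `{x, xz}` by `τ`. -/
def FF (hS : QSetting P z) (τ : P →* P) (hτz : τ z = z) : Subgroup P where
  carrier := {x | τ x = x ∨ τ x = x * z}
  mul_mem' := by
    intro a b ha hb
    have hzc := mem_center_iff.mp hS.z_center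
    have hzz := sqz hS
    change (τ a = a ∨ τ a = a * z) at ha
    change (τ b = b ∨ τ b = b * z) at hb
    change (τ (a * b) = a * b ∨ τ (a * b) = a * b * z)
    rw [map_mul]
    rcases ha with ha | ha <;> rcases hb with hb | hb <;> rw [ha, hb]
    · left; rfl
    · right; rw [mul_assoc]
    · right
      calc a * z * b = a * (z * b) := by rw [mul_assoc]
        _ = a * (b * z) := by rw [hzc b]
        _ = a * b * z := by rw [mul_assoc]
    · left
      calc a * z * (b * z) = a * (z * b) * z := by simp only [mul_assoc]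
        _ = a * (b * z) * z := by rw [hzc b]
        _ = a * b * (z * z) := by simp only [mul_assoc]
        _ = a * b := by rw [hzz, mul_one]
  one_mem' := by
    left
    simp
  inv_mem' := by
    intro a ha
    have hzc := mem_center_iff.mp hS.z_center
    have hzz := sqz hS
    change (τ a = a ∨ τ a = a * z) at ha
    change (τ a⁻¹ = a⁻¹ ∨ τ a⁻¹ = a⁻¹ * z)
    rw [map_inv]
    rcases ha with ha | ha <;> rw [ha]
    · left; rfl
    · right
      have hzi : z⁻¹ = z := inv_eq_of_mul_eq_one_right hzz
      rw [mul_inv_rev, hzi, hzc]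

theorem mem_FF (hS : QSetting P z) (τ : P →* P) (hτz : τ z = z) (x : P) :
    x ∈ FF hS τ hτz ↔ τ x = x ∨ τ x = x * z := Iff.rfl

theorem z_mem_FF (hS : QSetting P z) (τ : P →* P) (hτz : τ z = z) : z ∈ FF hS τ hτz := Or.inl hτz

/-- A two-element subgroup. -/
theorem eq_of_card_two (A : Subgroup P) (hA : Nat.card A = 2) (hz1 : z ≠ 1) (hzA : z ∈ A) {a : P}
    (ha : a ∈ A) : a = 1 ∨ a = z := by
  classical
  by_contra hne
  push Not at hne
  have h3 : ((({1, z, a} : Finset P) : Set P)).ncard ≤ ((A : Subgroup P) : Set P).ncard := by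
    apply Set.ncard_le_ncard _ (Set.toFinite _)
    intro x hx
    simp only [Finset.coe_insert, Finset.coe_singleton, Set.mem_insert_iff, Set.mem_singleton_iff] at hx
    rcases hx with rfl | rfl | rfl
    · exact one_mem _
    · exact hzA
    · exact ha
  rw [Set.ncard_coe_finset] at h3
  have h4 : ((A : Subgroup P) : Set P).ncard = 2 := by
    rw [← Nat.card_coe_set_eq]; exact hA
  have h5 : ({1, z, a} : Finset P).card = 3 := by
    rw [Finset.card_insert_of_notMem, Finset.card_insert_of_notMem, Finset.card_singleton]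
    · simpa using hne.2.symm
    · simp only [Finset.mem_insert, Finset.mem_singleton, not_or]
      exact ⟨hz1.symm, hne.1.symm⟩
  omega

/-- The order of a subgroup of a group of order 32 is a power of 2. -/
theorem card_sub_cases (hc : Nat.card P = 32) (A : Subgroup P) :
    Nat.card A = 1 ∨ Nat.card A = 2 ∨ Nat.card A = 4 ∨ Nat.card A = 8 ∨ Nat.card A = 16 ∨
      Nat.card A = 32 := by
  have h := Subgroup.card_subgroup_dvd_card A
  rw [hc, show (32 : ℕ) = 2 ^ 5 by norm_num, Nat.dvd_prime_pow Nat.prime_two] at h
  obtain ⟨k, hk, h⟩ := h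
  interval_cases k <;> simp [h]

/-- Counting mod 5. -/
theorem card_mod5 {α : Type*} [Finite α] (f : α → α) (hf : ∀ a, f (f (f (f (f a)))) = a) :
    Nat.card α ≡ Nat.card {a // f a = a} [MOD 5] := by
  classical
  cases nonempty_fintype α
  have hF5 : Fact (Nat.Prime 5) := ⟨by norm_num⟩
  let F : Function.End α := f
  have hF : F ^ 5 ^ 1 = 1 := by
    funext a
    exact hf a
  have h := Equiv.Perm.card_fixedPoints_modEq hF
  rw [← Nat.card_eq_fintype_card, ← Nat.card_eq_fintype_card] at h
  have h2 : Nat.card (Function.fixedPoints F) = Nat.card {a // f a = a} :=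
    Nat.card_congr ⟨fun x => ⟨x.1, x.2⟩, fun x => ⟨x.1, x.2⟩, fun _ => rfl, fun _ => rfl⟩
  rwa [h2] at h

/-- Fixed points of an automorphism of order 5. -/
theorem order_five (hS : QSetting P z) (hcc : Nat.card (center P) = 2) (hc : Nat.card P = 32)
    (σ : P →* P) (h5 : ∀ x, σ (σ (σ (σ (σ x)))) = x) (hne : ∃ x, σ x ≠ x) (hσz : σ z = z) :
    (∀ x, σ x = x → x = 1 ∨ x = z) ∧ NN P = 12 := by
  classical
  have h1 := card_mod5 (fun x : P => σ x) h5
  let A : Subgroup P := σ.eqLocus (MonoidHom.id P)
  have hA : ∀ x, x ∈ A ↔ σ x = x := fun x => Iff.rfl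
  have hAc : Nat.card A = Nat.card {a : P // σ a = a} := rfl
  have hzA : z ∈ A := hσz
  rw [← hAc, hc] at h1
  have hA2 : Nat.card A = 2 := by
    have h32 : Nat.card A ≠ 32 := by
      intro h
      obtain ⟨x, hx⟩ := hne
      have htop : A = ⊤ := by
        apply Subgroup.eq_top_of_card_eq
        rw [h, hc]
      exact hx ((hA x).1 (by rw [htop]; trivial))
    rcases card_sub_cases hc A with h | h | h | h | h | h
    · rw [h] at h1; exact absurd h1 (by decide)
    · exact h
    · rw [h] at h1; exact absurd h1 (by decide)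
    · rw [h] at h1; exact absurd h1 (by decide)
    · rw [h] at h1; exact absurd h1 (by decide)
    · exact absurd h h32
  have hfix : ∀ x, σ x = x → x = 1 ∨ x = z := by
    intro x hx
    exact eq_of_card_two A hA2 hS.z_ne hzA ((hA x).2 hx)
  refine ⟨hfix, ?_⟩
  -- Now the action on elements of square one
  let g : {x : P // x ^ 2 = 1} → {x : P // x ^ 2 = 1} := fun x => ⟨σ x.1, by rw [← map_pow, x.2, map_one]⟩
  have h2 := card_mod5 g (fun x => Subtype.ext (h5 x.1))
  have h3 : Nat.card {a // g a = a} = 2 := by
    have hz2 : z ^ 2 = 1 := hS.z_sq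
    let a : {a // g a = a} := ⟨⟨1, one_pow 2⟩, Subtype.ext (map_one σ)⟩
    let b : {a // g a = a} := ⟨⟨z, hz2⟩, Subtype.ext hσz⟩
    have hab : a ≠ b := by
      intro h
      have := congrArg (fun w : {a // g a = a} => (w.1.1 : P)) h
      exact hS.z_ne this.symm
    rw [Nat.card_eq_two_iff]
    refine ⟨a, b, hab, ?_⟩
    rw [Set.eq_univ_iff_forall]
    rintro ⟨⟨x, hx⟩, hxf⟩
    have hxσ : σ x = x := congrArg Subtype.val hxf
    simp only [Set.mem_insert_iff, Set.mem_singleton_iff]
    rcases hfix x hxσ with rfl | rfl
    · left; rfl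
    · right; rfl
  rw [h3] at h2
  rcases nn_cases hS hcc hc with h | h
  · exact h
  · change NN P ≡ 2 [MOD 5] at h2
    rw [h] at h2; exact absurd h2 (by decide)

end Cfsg.Agent.Lib.HJOrder.Basic
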