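import Cfsg.Agent.Lib.HJOrder.Tau
import Cfsg.Agent.Lib.HJOrder.A5
import Cfsg.Agent.Lib.Involutions.Thompson

set_option autoImplicit false
set_option linter.unusedSectionVars false
set_option linter.unusedVariables false
set_option linter.style.longLine false

namespace Cfsg.Agent.Lib.HJOrder.Local

open Subgroup Cfsg.Agent.Lib.PGroups.ExtraGauss Cfsg.Agent.Lib.HJOrder.Basic
  Cfsg.Agent.Lib.HJOrder.Tau Cfsg.Agent.Lib.HJOrder.A5
open scoped commutatorElement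

variable {G : Type*} [Group G] [Finite G]

/-- The properties of `Q = O₂(C(z))`. -/
structure QData (Q : Subgroup G) (z : G) : Prop where
  z_mem : z ∈ Q
  z_sq : z ^ 2 = 1
  z_ne : z ≠ 1
  central : ∀ x ∈ Q, x * z = z * x
  sq : ∀ x ∈ Q, x ^ 2 = 1 ∨ x ^ 2 = z
  comm : ∀ x ∈ Q, ∀ y ∈ Q, ⁅x, y⁆ = 1 ∨ ⁅x, y⁆ = z
  cent : ∀ g : G, (∀ x ∈ Q, g * x = x * g) → g = 1 ∨ g = z
  card : Nat.card Q = 32

namespace QData

variable {Q : Subgroup G} {z : G}

theorem setting (h : QData Q z) : QSetting ↥Q (⟨z, h.z_mem⟩ : ↥Q) where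
  z_center := mem_center_iff.mpr (fun x => Subtype.ext (h.central x x.2))
  z_sq := Subtype.ext h.z_sq
  z_ne := fun e => h.z_ne (congrArg Subtype.val e)
  sq_mem := fun x => by
    rcases h.sq x x.2 with e | e
    · left; exact Subtype.ext e
    · right; exact Subtype.ext e
  comm_mem := fun x y => by
    rcases h.comm x x.2 y y.2 with e | e
    · left; exact Subtype.ext e
    · right; exact Subtype.ext e

theorem center_card (h : QData Q z) : Nat.card (center ↥Q) = 2 := by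
  rw [Nat.card_eq_two_iff]
  refine ⟨1, ⟨⟨z, h.z_mem⟩, h.setting.z_center⟩, ?_, ?_⟩
  · intro e
    exact h.z_ne (congrArg (fun w : center ↥Q => ((w : ↥Q) : G)) e).symm
  · rw [Set.eq_univ_iff_forall]
    rintro ⟨⟨x, hxQ⟩, hx⟩
    have hc : ∀ y ∈ Q, x * y = y * x := by
      intro y hy
      have := mem_center_iff.mp hx ⟨y, hy⟩
      exact (congrArg Subtype.val this).symm
    simp only [Set.mem_insert_iff, Set.mem_singleton_iff]
    rcases h.cent x hc with e | e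
    · left; exact Subtype.ext (Subtype.ext e)
    · right; exact Subtype.ext (Subtype.ext e)

end QData

/-- Conjugation acting on `Q`. -/
def tauG (Q : Subgroup G) (v : G) (hv : ∀ x ∈ Q, v * x * v⁻¹ ∈ Q) : ↥Q →* ↥Q :=
  MonoidHom.mk' (fun x => ⟨v * x * v⁻¹, hv x x.2⟩) (by
    intro a b
    apply Subtype.ext
    change v * ((a : G) * b) * v⁻¹ = (v * a * v⁻¹) * (v * b * v⁻¹)
    group)

theorem tauG_coe (Q : Subgroup G) (v : G) (hv : ∀ x ∈ Q, v * x * v⁻¹ ∈ Q) (x : ↥Q) :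
    ((tauG Q v hv x : ↥Q) : G) = v * x * v⁻¹ := rfl

theorem tauG_z {Q : Subgroup G} {z v : G} (h : QData Q z) (hv : ∀ x ∈ Q, v * x * v⁻¹ ∈ Q) (hvz : v * z = z * v) :
    tauG Q v hv ⟨z, h.z_mem⟩ = ⟨z, h.z_mem⟩ := by
  apply Subtype.ext
  rw [tauG_coe]
  change v * z * v⁻¹ = z
  rw [hvz, mul_assoc, mul_inv_cancel, mul_one]

theorem tauG_invol {Q : Subgroup G} {v : G} (hv : ∀ x ∈ Q, v * x * v⁻¹ ∈ Q) (hv2 : v ^ 2 = 1) (x : ↥Q) :
    tauG Q v hv (tauG Q v hv x) = x := by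
  apply Subtype.ext
  rw [tauG_coe, tauG_coe]
  have hvi : v⁻¹ = v := inv_eq_of_mul_eq_one_right (by rw [← sq, hv2])
  rw [hvi]
  calc v * (v * (x : G) * v) * v = (v * v) * x * (v * v) := by group
    _ = x := by rw [← sq, hv2]; simp

theorem mem_FF_tau {Q : Subgroup G} {z v : G} (h : QData Q z) (hv : ∀ x ∈ Q, v * x * v⁻¹ ∈ Q) (hvz : v * z = z * v)
    (x : ↥Q) : x ∈ FF h.setting (tauG Q v hv) (tauG_z h hv hvz) ↔
      v * x * v⁻¹ = x ∨ v * x * v⁻¹ = x * z := by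
  rw [mem_FF, Subtype.ext_iff, Subtype.ext_iff]
  rfl

/-! ### Products of subgroups -/

theorem exists_mul_of_sup {A B : Subgroup G} (hn : ∀ b ∈ B, ∀ a ∈ A, b * a * b⁻¹ ∈ A) {g : G}
    (hg : g ∈ A ⊔ B) : ∃ a ∈ A, ∃ b ∈ B, g = a * b := by
  let D : Subgroup G :=
    { carrier := {g | ∃ a ∈ A, ∃ b ∈ B, g = a * b}
      mul_mem' := by
        rintro _ _ ⟨a, ha, b, hb, rfl⟩ ⟨a', ha', b', hb', rfl⟩
        refine ⟨a * (b * a' * b⁻¹), mul_mem ha (hn b hb a' ha'), b * b', mul_mem hb hb', by group⟩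
      one_mem' := ⟨1, one_mem _, 1, one_mem _, by simp⟩
      inv_mem' := by
        rintro _ ⟨a, ha, b, hb, rfl⟩
        exact ⟨b⁻¹ * a⁻¹ * b⁻¹⁻¹, hn b⁻¹ (B.inv_mem hb) a⁻¹ (A.inv_mem ha), b⁻¹, B.inv_mem hb, by group⟩ }
  have hA : A ≤ D := fun a ha => ⟨a, ha, 1, one_mem _, by simp⟩
  have hB : B ≤ D := fun b hb => ⟨1, one_mem _, b, hb, by simp⟩
  exact (sup_le hA hB) hg

theorem card_sup_of_inf {A B : Subgroup G} (hn : ∀ b ∈ B, ∀ a ∈ A, b * a * b⁻¹ ∈ A) (hAB : A ⊓ B = ⊥) :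
    Nat.card ↥(A ⊔ B) = Nat.card A * Nat.card B := by
  rw [← Nat.card_prod]
  symm
  apply Nat.card_congr
  refine Equiv.ofBijective (fun p : ↥A × ↥B => (⟨p.1 * p.2, mul_mem_sup p.1.2 p.2.2⟩ : ↥(A ⊔ B))) ⟨?_, ?_⟩
  · rintro ⟨⟨a, ha⟩, ⟨b, hb⟩⟩ ⟨⟨a', ha'⟩, ⟨b', hb'⟩⟩ h
    have h1 : a * b = a' * b' := congrArg Subtype.val h
    have h2 : a'⁻¹ * a = b' * b⁻¹ := by
      calc a'⁻¹ * a = a'⁻¹ * (a * b) * b⁻¹ := by group
        _ = a'⁻¹ * (a' * b') * b⁻¹ := by rw [h1]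
        _ = b' * b⁻¹ := by group
    have h3 : a'⁻¹ * a ∈ A ⊓ B := ⟨A.mul_mem (A.inv_mem ha') ha, by rw [h2]; exact B.mul_mem hb' (B.inv_mem hb)⟩
    rw [hAB, mem_bot] at h3
    have h4 : a = a' := by
      calc a = a' * (a'⁻¹ * a) := by group
        _ = a' := by rw [h3, mul_one]
    subst h4
    have h5 : b = b' := mul_left_cancel h1
    subst h5
    rfl
  · rintro ⟨g, hg⟩
    obtain ⟨a, ha, b, hb, rfl⟩ := exists_mul_of_sup hn hg
    exact ⟨(⟨a, ha⟩, ⟨b, hb⟩), rfl⟩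

theorem card_sigma_const {α : Type*} [Finite α] (β : α → Type*) [∀ a, Finite (β a)] (n : ℕ)
    (h : ∀ a, Nat.card (β a) = n) : Nat.card (Σ a, β a) = Nat.card α * n := by
  classical
  cases nonempty_fintype α
  rw [Nat.card_sigma, Finset.sum_congr rfl (fun a _ => h a), Finset.sum_const, Finset.card_univ,
    smul_eq_mul, Nat.card_eq_fintype_card]

theorem conj_of_mem_zpowers {a b w : G} (ha : a ^ 2 = 1) (hb : b ^ 2 = 1) (hw : w ∈ zpowers (a * b))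
    (hw2 : w ^ 2 = 1) : a * w = w * a ∧ b * w = w * b := by
  have hai : a⁻¹ = a := inv_eq_of_mul_eq_one_right (by rw [← sq, ha])
  have hbi : b⁻¹ = b := inv_eq_of_mul_eq_one_right (by rw [← sq, hb])
  have hwi : w⁻¹ = w := inv_eq_of_mul_eq_one_right (by rw [← sq, hw2])
  obtain ⟨m, rfl⟩ := hw
  have h1 : a * (a * b) * a⁻¹ = (a * b)⁻¹ := by
    rw [mul_inv_rev, hai, hbi, ← mul_assoc a a b, ← sq, ha, one_mul]
  have h2 : b * (a * b) * b⁻¹ = (a * b)⁻¹ := by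
    rw [mul_inv_rev, hai, hbi, mul_assoc b, mul_assoc a, ← sq, hb, mul_one]
  simp only at hwi
  constructor
  · have h3 : a * (a * b) ^ m * a⁻¹ = (a * b) ^ m := by
      rw [← conj_zpow, h1, inv_zpow, hwi]
    calc a * (a * b) ^ m = a * (a * b) ^ m * a⁻¹ * a := by group
      _ = _ := by rw [h3]
  · have h3 : b * (a * b) ^ m * b⁻¹ = (a * b) ^ m := by
      rw [← conj_zpow, h2, inv_zpow, hwi]
    calc b * (a * b) ^ m = b * (a * b) ^ m * b⁻¹ * b := by group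
      _ = _ := by rw [h3]

/-- Transport of `A₅` facts. -/
theorem k_pair {K : Subgroup G} (hK : Nonempty (↥K ≃* AFive)) {k : G} (hk : k ∈ K) (hk2 : k ^ 2 = 1)
    (hk1 : k ≠ 1) : ∃ k' ∈ K, k' ^ 2 = 1 ∧ k * k' ≠ 1 ∧ (k * k') ^ 5 = 1 := by
  obtain ⟨e⟩ := hK
  let kk : ↥K := ⟨k, hk⟩
  have h1 : (e kk) ^ 2 = 1 := by
    rw [← map_pow]
    have : kk ^ 2 = 1 := Subtype.ext hk2
    rw [this, map_one]
  have h2 : e kk ≠ 1 := by
    intro h
    rw [map_eq_one_iff e e.injective] at h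
    exact hk1 (congrArg Subtype.val h)
  obtain ⟨a, ha1, ha2, ha3⟩ := a5_pair (e kk) h1 h2
  refine ⟨(e.symm a : ↥K), (e.symm a).2, ?_, ?_, ?_⟩
  · have : (e.symm a) ^ 2 = 1 := by rw [← map_pow, ha1, map_one]
    exact congrArg Subtype.val this
  · intro h
    apply ha2
    have h3 : kk * e.symm a = 1 := Subtype.ext h
    have h4 := congrArg e h3
    simpa using h4
  · have h3 : (kk * e.symm a) ^ 5 = 1 := by
      have h4 : kk = e.symm (e kk) := by simp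
      rw [h4, ← map_mul, ← map_pow, ha3, map_one]
    exact congrArg Subtype.val h3

theorem k_five {K : Subgroup G} (hK : Nonempty (↥K ≃* AFive)) : ∃ σ ∈ K, σ ≠ 1 ∧ σ ^ 5 = 1 := by
  obtain ⟨e⟩ := hK
  obtain ⟨a, ha1, ha2⟩ := a5_five
  refine ⟨(e.symm a : ↥K), (e.symm a).2, ?_, ?_⟩
  · intro h
    apply ha1
    have h3 : e.symm a = 1 := Subtype.ext h
    have h4 := congrArg e h3
    simpa using h4
  · have : (e.symm a) ^ 5 = 1 := by rw [← map_pow, ha2, map_one]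
    exact congrArg Subtype.val this

theorem k_inv_count {K : Subgroup G} (hK : Nonempty (↥K ≃* AFive)) :
    Nat.card {k : G // k ∈ K ∧ k ^ 2 = 1 ∧ k ≠ 1} = 15 := by
  obtain ⟨e⟩ := hK
  rw [← a5_inv_count, ← Nat.card_eq_fintype_card]
  apply Nat.card_congr
  refine ⟨fun k => ⟨e ⟨k.1, k.2.1⟩, ?_, ?_⟩, fun a => ⟨(e.symm a.1 : ↥K), (e.symm a.1).2, ?_, ?_⟩, ?_, ?_⟩
  · rw [← map_pow]
    have : (⟨k.1, k.2.1⟩ : ↥K) ^ 2 = 1 := Subtype.ext k.2.2.1
    rw [this, map_one]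
  · intro h
    rw [map_eq_one_iff e e.injective] at h
    exact k.2.2.2 (congrArg Subtype.val h)
  · have : (e.symm a.1) ^ 2 = 1 := by rw [← map_pow, a.2.1, map_one]
    exact congrArg Subtype.val this
  · intro h
    apply a.2.2
    have h3 : e.symm a.1 = 1 := Subtype.ext h
    have h4 := congrArg e h3
    simpa using h4
  · intro k
    apply Subtype.ext
    simp
  · intro a
    apply Subtype.ext
    simp

end Cfsg.Agent.Lib.HJOrder.Local
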