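import Cfsg.Agent.Lib.HJOrder.Basic

set_option autoImplicit false
set_option linter.unusedSectionVars false
set_option linter.unusedVariables false
set_option linter.style.longLine false

namespace Cfsg.Agent.Lib.HJOrder.Tau

open Subgroup Cfsg.Agent.Lib.PGroups.ExtraGauss Cfsg.Agent.Lib.LargeExtra
  Cfsg.Agent.Lib.HJOrder.Basic
open scoped commutatorElement

variable {P : Type*} [Group P] [Finite P] {z : P}

theorem zpowers_mem (hS : QSetting P z) {x : P} : x ∈ zpowers z ↔ x = 1 ∨ x = z := by
  constructor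
  · intro hx
    have h2 : Nat.card (zpowers z) = 2 := by
      rw [Nat.card_zpowers]
      exact orderOf_eq_prime hS.z_sq hS.z_ne
    exact eq_of_card_two _ h2 hS.z_ne (mem_zpowers z) hx
  · rintro (h | h) <;> rw [h]
    · exact one_mem _
    · exact mem_zpowers z

theorem inv_z (hS : QSetting P z) : z⁻¹ = z := inv_eq_of_mul_eq_one_right (sqz hS)

theorem z_comm (hS : QSetting P z) (x : P) : x * z = z * x := mem_center_iff.mp hS.z_center x

theorem inv_cases (hS : QSetting P z) (x : P) : x⁻¹ = x ∨ x⁻¹ = x * z := by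
  rcases hS.sq_mem x with h | h
  · left
    apply inv_eq_of_mul_eq_one_right
    rw [← sq, h]
  · right
    apply inv_eq_of_mul_eq_one_right
    calc x * (x * z) = (x ^ 2) * z := by rw [sq, mul_assoc]
      _ = 1 := by rw [h, sqz hS]

theorem zpowers_normal (hS : QSetting P z) : (zpowers z).Normal := by
  constructor
  intro n hn g
  rw [zpowers_mem hS] at hn ⊢
  rcases hn with h | h <;> rw [h]
  · left; simp
  · right
    rw [z_comm hS g, mul_assoc, mul_inv_cancel, mul_one]

/-- The basic inequality for the index. -/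
theorem index_le_four (hS : QSetting P z) (hc : Nat.card P = 32) (τ : P →* P) (hτ : ∀ x, τ (τ x) = x)
    (hτz : τ z = z) :
    (FF hS τ hτz).index ≤ 4 ∧ ((FF hS τ hτz).index = 4 → ∀ y ∈ FF hS τ hτz, ∃ x : P,
      y = x⁻¹ * τ x ∨ y = x⁻¹ * τ x * z) := by
  classical
  set F := FF hS τ hτz with hF
  have hZn : (zpowers z).Normal := zpowers_normal hS
  let q : P →* P ⧸ zpowers z := QuotientGroup.mk' (zpowers z)
  have hq : ∀ a b, q a = q b ↔ a⁻¹ * b = 1 ∨ a⁻¹ * b = z := by
    intro a b
    rw [← zpowers_mem hS]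
    exact QuotientGroup.eq
  have hqc : ∀ a b, q a * q b = q b * q a := by
    intro a b
    rw [← map_mul, ← map_mul, hq]
    have h := hS.comm_mem b⁻¹ a⁻¹
    rw [commutatorElement_def, inv_inv, inv_inv] at h
    rcases h with h | h
    · left; rw [← h]; group
    · right; rw [← h]; group
  let δ : P →* P ⧸ zpowers z := MonoidHom.mk' (fun x => q (x⁻¹ * τ x)) (by
    intro a b
    simp only [map_mul, mul_inv_rev, map_inv]
    have h := hqc b⁻¹ (a⁻¹ * τ a)
    simp only [map_mul, map_inv] at h
    calc (q b)⁻¹ * (q a)⁻¹ * (q (τ a) * q (τ b)) = ((q b)⁻¹ * ((q a)⁻¹ * q (τ a))) * q (τ b) := by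
          group
      _ = ((q a)⁻¹ * q (τ a) * (q b)⁻¹) * q (τ b) := by rw [h]
      _ = _ := by group)
  have hδ : ∀ x, δ x = q (x⁻¹ * τ x) := fun x => rfl
  have hker : δ.ker = F := by
    ext x
    rw [MonoidHom.mem_ker, hδ, mem_FF]
    have h1 := hq 1 (x⁻¹ * τ x)
    simp only [map_one, inv_one, one_mul] at h1
    rw [eq_comm, h1]
    constructor
    · rintro (h | h)
      · left
        calc τ x = x * (x⁻¹ * τ x) := by group
          _ = x := by rw [h, mul_one]
      · right
        calc τ x = x * (x⁻¹ * τ x) := by group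
          _ = x * z := by rw [h]
    · rintro (h | h)
      · left; rw [h]; group
      · right; rw [h]; group
  have hτr : ∀ x : P, τ (x⁻¹ * τ x) = (x⁻¹ * τ x)⁻¹ := by
    intro x
    rw [map_mul, map_inv, hτ]
    group
  have hrange : δ.range ≤ F.map q := by
    rintro _ ⟨x, rfl⟩
    refine ⟨x⁻¹ * τ x, ?_, rfl⟩
    rw [SetLike.mem_coe, mem_FF, hτr]
    exact inv_cases hS _
  have hZ2 : Nat.card (zpowers z) = 2 := by
    rw [Nat.card_zpowers]
    exact orderOf_eq_prime hS.z_sq hS.z_ne
  have hQ16 : Nat.card (P ⧸ zpowers z) = 16 := by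
    have := Subgroup.card_eq_card_quotient_mul_card_subgroup (zpowers z)
    rw [hZ2, hc] at this
    omega
  have hi : F.index = Nat.card δ.range := by
    rw [← hker, Subgroup.index_ker]
  have hmi : (F.map q).index = F.index := by
    rw [Subgroup.index_map]
    have h1 : q.ker = zpowers z := QuotientGroup.ker_mk' _
    have h2 : q.range = ⊤ := QuotientGroup.range_mk' _
    rw [h1, h2, Subgroup.index_top, mul_one, sup_eq_left.mpr]
    rw [zpowers_le]
    exact z_mem_FF hS τ hτz
  have hm := Subgroup.card_mul_index (F.map q)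
  rw [hmi, hQ16] at hm
  have hle : Nat.card δ.range ≤ Nat.card (F.map q) := Subgroup.card_le_of_le hrange
  rw [← hi] at hle
  have hpos : 0 < F.index := by
    rcases Nat.eq_zero_or_pos F.index with h | h
    · rw [h] at hm; omega
    · exact h
  constructor
  · nlinarith
  · intro h4 y hy
    rw [h4] at hm hle hi
    have hm4 : Nat.card (F.map q) = 4 := by omega
    have heq : δ.range = F.map q :=
      Subgroup.eq_of_le_of_card_ge hrange (by rw [hm4, ← hi])
    have hy' : q y ∈ δ.range := by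
      rw [heq]
      exact ⟨y, hy, rfl⟩
    obtain ⟨x, hx⟩ := hy'
    rw [hδ, hq] at hx
    refine ⟨x, ?_⟩
    rcases hx with h | h
    · left
      calc y = (x⁻¹ * τ x) * ((x⁻¹ * τ x)⁻¹ * y) := by group
        _ = _ := by rw [h, mul_one]
    · right
      calc y = (x⁻¹ * τ x) * ((x⁻¹ * τ x)⁻¹ * y) := by group
        _ = _ := by rw [h]

section Tight

variable (hS : QSetting P z) (hcc : Nat.card (center P) = 2) (hc : Nat.card P = 32) (τ : P →* P)
  (hτ : ∀ x, τ (τ x) = x) (hτz : τ z = z) (hn : NN P = 12)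
  (hi : (FF hS τ hτz).index = 4)

include hc hτ hi in
theorem tau_inv {y : P} (hy : y ∈ FF hS τ hτz) : τ y = y⁻¹ := by
  have hτr : ∀ x : P, τ (x⁻¹ * τ x) = (x⁻¹ * τ x)⁻¹ := by
    intro x
    rw [map_mul, map_inv, hτ]
    group
  obtain ⟨x, h | h⟩ := (index_le_four hS hc τ hτ hτz).2 hi y hy
  · rw [h, hτr]
  · rw [h, map_mul, hτr, hτz, mul_inv_rev (x⁻¹ * τ x) z, inv_z hS, z_comm hS]

include hc hτ hi in
theorem F_comm {y y' : P} (hy : y ∈ FF hS τ hτz) (hy' : y' ∈ FF hS τ hτz) : y * y' = y' * y := by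
  have h1 := tau_inv hS hc τ hτ hτz hi (mul_mem hy hy')
  rw [map_mul, tau_inv hS hc τ hτ hτz hi hy, tau_inv hS hc τ hτ hτz hi hy', mul_inv_rev] at h1
  have h2 := congrArg (fun w => w⁻¹) h1
  simpa using h2.symm

/-- Splitting a subtype. -/
theorem card_split {α : Type*} [Finite α] (p q : α → Prop) :
    Nat.card {a // p a} = Nat.card {a // p a ∧ q a} + Nat.card {a // p a ∧ ¬ q a} := by
  classical
  have h1 : Nat.card {a // p a} = Nat.card ({a : {a // p a} // q a.1} ⊕ {a : {a // p a} // ¬ q a.1}) :=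
    Nat.card_congr (Equiv.sumCompl _).symm
  rw [h1, Nat.card_sum]
  congr 1
  · exact Nat.card_congr (Equiv.subtypeSubtypeEquivSubtypeInter p q)
  · exact Nat.card_congr (Equiv.subtypeSubtypeEquivSubtypeInter p (fun a => ¬ q a))

include hc hi in
theorem card_F : Nat.card (FF hS τ hτz) = 8 := by
  have := Subgroup.card_mul_index (FF hS τ hτz)
  rw [hi, hc] at this
  omega

include hcc hc hτ hn hi in
theorem exists_sq_z : ∃ y ∈ FF hS τ hτz, y ^ 2 = z := by
  by_contra hall
  push Not at hall
  have h2 : ∀ a ∈ FF hS τ hτz, a ^ 2 = 1 := by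
    intro a ha
    rcases hS.sq_mem a with h | h
    · exact h
    · exact absurd h (hall a ha)
  have := nn_of_e8 hS hcc hc (FF hS τ hτz) (z_mem_FF hS τ hτz) h2
    (by rw [card_F hS hc τ hτz hi])
  omega

include hcc hc hτ hn hi in
theorem card_in_F : Nat.card {u : P // u ∈ FF hS τ hτz ∧ u ^ 2 = 1} = 4 := by
  obtain ⟨y₀, hy₀, hy₀2⟩ := exists_sq_z hS hcc hc τ hτ hτz hn hi
  have h1 := card_split (fun u : P => u ∈ FF hS τ hτz) (fun u => u ^ 2 = 1)
  have h2 : Nat.card {u : P // u ∈ FF hS τ hτz} = 8 := card_F hS hc τ hτz hi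
  have hcomm := fun {y y' : P} => F_comm hS hc τ hτ hτz hi (y := y) (y' := y')
  have h3 : Nat.card {u : P // u ∈ FF hS τ hτz ∧ u ^ 2 = 1} =
      Nat.card {u : P // u ∈ FF hS τ hτz ∧ ¬ u ^ 2 = 1} := by
    apply Nat.card_congr
    refine ⟨fun u => ⟨u.1 * y₀, mul_mem u.2.1 hy₀, ?_⟩, fun u => ⟨u.1 * y₀⁻¹, mul_mem u.2.1 (inv_mem hy₀), ?_⟩,
      ?_, ?_⟩
    · have : (u.1 * y₀) ^ 2 = z := by
        rw [(show Commute u.1 y₀ from hcomm u.2.1 hy₀).mul_pow, u.2.2, one_mul, hy₀2]
      rw [this]
      exact hS.z_ne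
    · have hu := u.2.2
      have hu2 : u.1 ^ 2 = z := (hS.sq_mem u.1).resolve_left hu
      rw [(show Commute u.1 y₀⁻¹ from hcomm u.2.1 (inv_mem hy₀)).mul_pow, hu2, inv_pow, hy₀2]
      exact mul_inv_cancel z
    · intro u; simp
    · intro u; simp
  omega

include hcc hc hτ hn hi in
theorem card_out_F : Nat.card {u : P // u ^ 2 = 1 ∧ u ∉ FF hS τ hτz} = 8 := by
  have h1 := card_split (fun u : P => u ^ 2 = 1) (fun u => u ∈ FF hS τ hτz)
  have h2 : Nat.card {u : P // u ^ 2 = 1 ∧ u ∈ FF hS τ hτz} = 4 := by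
    rw [← card_in_F hS hcc hc τ hτ hτz hn hi]
    exact Nat.card_congr (Equiv.subtypeEquivRight (fun _ => and_comm))
  have h3 : Nat.card {u : P // u ^ 2 = 1} = 12 := hn
  omega

include hc hτ hi in
theorem card_inv : Nat.card {y : P // τ y = y⁻¹} = 8 := by
  rw [← card_F hS hc τ hτz hi]
  apply Nat.card_congr
  refine Equiv.subtypeEquivRight (fun y => ?_)
  constructor
  · intro h
    rw [mem_FF, h]
    exact inv_cases hS y
  · intro h
    exact tau_inv hS hc τ hτ hτz hi h

/-- Two commuting involutions generate together with `z` a big elementary abelian group. -/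
theorem no_commuting (hS : QSetting P z) (hcc : Nat.card (center P) = 2) (hc : Nat.card P = 32)
    {u u' : P} (hu2 : u ^ 2 = 1) (hu'2 : u' ^ 2 = 1) (hcomm : u * u' = u' * u)
    (h1 : u ≠ 1) (h2 : u ≠ z) (h3 : u' ≠ 1) (h4 : u' ≠ z) (h5 : u' ≠ u) (h6 : u' ≠ u * z) : NN P = 20 := by
  classical
  let k : Set P := {z, u, u'}
  have hk : ∀ x ∈ k, ∀ y ∈ k, x * y = y * x := by
    have hz := z_comm hS
    rintro x (rfl | rfl | rfl) y (rfl | rfl | rfl)
    · rfl
    · exact (hz _).symm
    · exact (hz _).symm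
    · exact hz _
    · rfl
    · exact hcomm
    · exact hz _
    · exact hcomm.symm
    · rfl
  have hcl : ∀ a ∈ closure k, ∀ b ∈ closure k, a * b = b * a := by
    have := Subgroup.isMulCommutative_closure hk
    intro a ha b hb
    exact congrArg Subtype.val (this.is_comm.comm (⟨a, ha⟩ : closure k) ⟨b, hb⟩)
  have hA2 : ∀ a ∈ closure k, a ^ 2 = 1 := by
    intro a ha
    induction ha using closure_induction with
    | mem x hx =>
      rcases hx with rfl | rfl | rfl
      · exact hS.z_sq
      · exact hu2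
      · exact hu'2
    | one => simp
    | mul a b ha hb iha ihb =>
      rw [(show Commute a b from hcl a ha b hb).mul_pow, iha, ihb, one_mul]
    | inv a _ iha => rw [inv_pow, iha, inv_one]
  have hzA : z ∈ closure k := subset_closure (by simp [k])
  have huA : u ∈ closure k := subset_closure (by simp [k])
  have hu'A : u' ∈ closure k := subset_closure (by simp [k])
  apply nn_of_e8 hS hcc hc (closure k) hzA hA2
  have hcard : (({1, z, u, u * z, u'} : Finset P) : Set P).ncard ≤ ((closure k : Subgroup P) : Set P).ncard := by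
    apply Set.ncard_le_ncard _ (Set.toFinite _)
    intro x hx
    simp only [Finset.coe_insert, Finset.coe_singleton, Set.mem_insert_iff, Set.mem_singleton_iff] at hx
    rcases hx with rfl | rfl | rfl | rfl | rfl
    · exact one_mem _
    · exact hzA
    · exact huA
    · exact mul_mem huA hzA
    · exact hu'A
  rw [Set.ncard_coe_finset, ← Nat.card_coe_set_eq] at hcard
  have hz1 := hS.z_ne
  have n1 : u * z ∉ ({u'} : Finset P) := by
    simp only [Finset.mem_singleton]
    exact fun h => h6 h.symm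
  have n2 : u ∉ ({u * z, u'} : Finset P) := by
    simp only [Finset.mem_insert, Finset.mem_singleton, not_or]
    refine ⟨fun h => hz1 ?_, fun h => h5 h.symm⟩
    exact mul_left_cancel (a := u) (by rw [← h, mul_one])
  have n3 : z ∉ ({u, u * z, u'} : Finset P) := by
    simp only [Finset.mem_insert, Finset.mem_singleton, not_or]
    refine ⟨fun h => h2 h.symm, fun h => h1 ?_, fun h => h4 h.symm⟩
    exact mul_right_cancel (b := z) (by rw [← h, one_mul])
  have n4 : (1 : P) ∉ ({z, u, u * z, u'} : Finset P) := by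
    simp only [Finset.mem_insert, Finset.mem_singleton, not_or]
    refine ⟨fun h => hz1 h.symm, fun h => h1 h.symm, fun h => h2 ?_, fun h => h3 h.symm⟩
    have h7 : u * z * z = 1 * z := by rw [← h]
    rw [mul_assoc, sqz hS, mul_one, one_mul] at h7
    exact h7
  have h5card : ({1, z, u, u * z, u'} : Finset P).card = 5 := by
    rw [Finset.card_insert_of_notMem n4, Finset.card_insert_of_notMem n3, Finset.card_insert_of_notMem n2,
      Finset.card_insert_of_notMem n1, Finset.card_singleton]
  rw [h5card] at hcard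
  rcases card_sub_cases hc (closure k) with h | h | h | h | h | h
  · change Nat.card (closure k) ≥ 5 at hcard; omega
  · change Nat.card (closure k) ≥ 5 at hcard; omega
  · change Nat.card (closure k) ≥ 5 at hcard; omega
  all_goals omega

include hcc hc hτ hτz hn hi in
/-- Outside `F`, an element of square one does not commute with its image. -/
theorem mul_tau_sq {u : P} (hu : u ^ 2 = 1) (huF : u ∉ FF hS τ hτz) : u * τ u * (u * τ u) = z := by
  have h1F : (1 : P) ∈ FF hS τ hτz := one_mem _
  have hzF := z_mem_FF hS τ hτz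
  have hu'2 : (τ u) ^ 2 = 1 := by rw [← map_pow, hu, map_one]
  have hn1 : ¬ u * τ u = τ u * u := by
    intro hcomm
    have := no_commuting hS hcc hc hu hu'2 hcomm (fun h => huF (h ▸ h1F)) (fun h => huF (h ▸ hzF))
      (fun h => huF (by
        have : u = 1 := by rw [← hτ u, h, map_one]
        rw [this]; exact h1F))
      (fun h => huF (by
        have : u = z := by rw [← hτ u, h, hτz]
        rw [this]; exact hzF))
      (fun h => huF (Or.inl h)) (fun h => huF (Or.inr h))
    omega
  have hi1 : u⁻¹ = u := inv_eq_of_mul_eq_one_right (by rw [← sq, hu])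
  have hi2 : (τ u)⁻¹ = τ u := inv_eq_of_mul_eq_one_right (by rw [← sq, hu'2])
  rcases hS.comm_mem u (τ u) with h | h
  · exact absurd (commutatorElement_eq_one_iff_mul_comm.mp h) hn1
  · rw [commutatorElement_def, hi1, hi2] at h
    rw [← h]
    group

end Tight

/-- The index is four if the product with another involution has order 5. -/
theorem index_eq_four (hS : QSetting P z) (hcc : Nat.card (center P) = 2) (hc : Nat.card P = 32)
    (τ τ' : P →* P) (hτ : ∀ x, τ (τ x) = x) (hτ' : ∀ x, τ' (τ' x) = x) (hτz : τ z = z) (hτ'z : τ' z = z)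
    (h5 : ∀ x, τ (τ' (τ (τ' (τ (τ' (τ (τ' (τ (τ' x))))))))) = x) (hne : ∃ x, τ (τ' x) ≠ x) :
    (FF hS τ hτz).index = 4 := by
  classical
  let σ : P →* P := τ.comp τ'
  have hσ : ∀ x, σ x = τ (τ' x) := fun _ => rfl
  have hσz : σ z = z := by rw [hσ, hτ'z, hτz]
  have hord := order_five hS hcc hc σ h5 hne hσz
  have hzz := sqz hS
  have hsub : ∀ x ∈ FF hS τ hτz ⊓ FF hS τ' hτ'z, x = 1 ∨ x = z := by
    rintro x ⟨hx, hx'⟩
    have hx1 : τ x = x ∨ τ x = x * z := hx
    have hx2 : τ' x = x ∨ τ' x = x * z := hx'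
    have h1 : σ x = x ∨ σ x = x * z := by
      rw [hσ]
      rcases hx2 with h | h <;> rw [h]
      · exact hx1
      · rw [map_mul, hτz]
        rcases hx1 with h' | h' <;> rw [h']
        · right; rfl
        · left; rw [mul_assoc, hzz, mul_one]
    rcases h1 with h | h
    · exact hord.1 x h
    · exfalso
      have h2 : σ (x * z) = x := by rw [map_mul, h, hσz, mul_assoc, hzz, mul_one]
      have h3 : σ (σ (σ (σ (σ x)))) = x * z := by
        rw [h, h2, h, h2, h]
      have h4 : σ (σ (σ (σ (σ x)))) = x := h5 x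
      rw [h4] at h3
      apply hS.z_ne
      exact (mul_left_cancel (a := x) (by rw [← h3, mul_one])).symm
  have hcard : Nat.card (FF hS τ hτz ⊓ FF hS τ' hτ'z : Subgroup P) ≤ 2 := by
    have h3 : (((FF hS τ hτz ⊓ FF hS τ' hτ'z : Subgroup P) : Set P)).ncard ≤ (({1, z} : Finset P) : Set P).ncard := by
      apply Set.ncard_le_ncard _ (Set.toFinite _)
      intro x hx
      rcases hsub x hx with h | h <;> simp [h]
    rw [Set.ncard_coe_finset, ← Nat.card_coe_set_eq] at h3
    exact h3.trans Finset.card_le_two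
  have hm := Subgroup.card_mul_index (FF hS τ hτz ⊓ FF hS τ' hτ'z)
  rw [hc] at hm
  have hinf : (FF hS τ hτz ⊓ FF hS τ' hτ'z).index ≤ (FF hS τ hτz).index * (FF hS τ' hτ'z).index := Subgroup.index_inf_le
  have h1 := (index_le_four hS hc τ hτ hτz).1
  have h2 := (index_le_four hS hc τ' hτ' hτ'z).1
  have h16 : 16 ≤ (FF hS τ hτz ⊓ FF hS τ' hτ'z).index := by
    by_contra hlt
    push Not at hlt
    nlinarith
  have h3 : 16 ≤ (FF hS τ hτz).index * (FF hS τ' hτ'z).index := h16.trans hinf
  by_contra h4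
  have h5' : (FF hS τ hτz).index ≤ 3 := by omega
  nlinarith

end Cfsg.Agent.Lib.HJOrder.Tau
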