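import Cfsg.Agent.Lib.HJOrder.Zside
import Cfsg.Prelude.Def_TwoFusion

set_option autoImplicit false
set_option linter.unusedSectionVars false
set_option linter.unusedVariables false
set_option linter.style.longLine false

namespace Cfsg.Agent.Lib.HJOrder.Tside

open Subgroup Cfsg.Agent.Lib.HJOrder.A5 Cfsg.Agent.Lib.HJOrder.Local
  Cfsg.Agent.Lib.Involutions.Thompson
open scoped commutatorElement

variable {G : Type*} [Group G] [Finite G]

theorem b_orders {B : Subgroup G} (hB : Nonempty (↥B ≃* AFive)) {x : G} (hx : x ∈ B) :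
    x = 1 ∨ x ^ 2 = 1 ∨ x ^ 3 = 1 ∨ x ^ 5 = 1 := by
  obtain ⟨e⟩ := hB
  have key : ∀ n : ℕ, (e ⟨x, hx⟩) ^ n = 1 → x ^ n = 1 := by
    intro n hn
    rw [← map_pow, map_eq_one_iff e e.injective] at hn
    exact congrArg Subtype.val hn
  rcases a5_orders (e ⟨x, hx⟩) with h | h | h | h
  · left
    rw [map_eq_one_iff e e.injective] at h
    exact congrArg Subtype.val h
  · exact Or.inr (Or.inl (key 2 h))
  · exact Or.inr (Or.inr (Or.inl (key 3 h)))
  · exact Or.inr (Or.inr (Or.inr (key 5 h)))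

theorem b_pairs_count {B : Subgroup G} (hB : Nonempty (↥B ≃* AFive)) :
    Nat.card {p : G × G // (p.1 ∈ B ∧ p.1 ^ 2 = 1 ∧ p.1 ≠ 1) ∧ (p.2 ∈ B ∧ p.2 ^ 2 = 1 ∧ p.2 ≠ 1) ∧ (p.1 * p.2) ^ 15 = 1} = 195 := by
  obtain ⟨e⟩ := hB
  rw [← a5_pairs_count, ← Nat.card_eq_fintype_card]
  have h1 : ∀ (x : ↥B) (n : ℕ), (x : G) ^ n = 1 ↔ (e x) ^ n = 1 := by
    intro x n
    rw [← map_pow, map_eq_one_iff e e.injective, ← Subtype.coe_inj]
    rfl
  have h2 : ∀ (x : ↥B), (x : G) ≠ 1 ↔ e x ≠ 1 := by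
    intro x
    rw [ne_eq, ne_eq, map_eq_one_iff e e.injective, ← Subtype.coe_inj]
    rfl
  have h3 : ∀ (x y : ↥B) (n : ℕ), ((x : G) * y) ^ n = 1 ↔ (e x * e y) ^ n = 1 := by
    intro x y n
    rw [← map_mul, ← h1]
    rfl
  apply Nat.card_congr
  refine ⟨fun p => ⟨(e ⟨p.1.1, p.2.1.1⟩, e ⟨p.1.2, p.2.2.1.1⟩), ⟨(h1 _ _).1 p.2.1.2.1, (h2 _).1 p.2.1.2.2⟩,
      ⟨(h1 _ _).1 p.2.2.1.2.1, (h2 _).1 p.2.2.1.2.2⟩, (h3 ⟨p.1.1, p.2.1.1⟩ ⟨p.1.2, p.2.2.1.1⟩ 15).1 p.2.2.2⟩,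
    fun a => ⟨((e.symm a.1.1 : ↥B), (e.symm a.1.2 : ↥B)), ⟨(e.symm a.1.1).2, (h1 _ _).2 (by simpa using a.2.1.1), (h2 _).2 (by simpa using a.2.1.2)⟩,
      ⟨(e.symm a.1.2).2, (h1 _ _).2 (by simpa using a.2.2.1.1), (h2 _).2 (by simpa using a.2.2.1.2)⟩, (h3 _ _ 15).2 (by simpa using a.2.2.2)⟩, ?_, ?_⟩
  · intro p
    apply Subtype.ext
    simp
  · intro a
    apply Subtype.ext
    simp

/-- The second count in the Thompson formula. -/
theorem card_pairs {z t : G} (V B : Subgroup G) (hz : orderOf z = 2) (ht : orderOf t = 2) (hzt : ¬ IsConj z t)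
    (hVB : Cfsg.IsInternalDirectProduct V B (Subgroup.centralizer ({t} : Set G)))
    (hV2 : ∀ v ∈ V, v ^ 2 = 1) (htV : t ∈ V) (hB : Nonempty (↥B ≃* AFive))
    (hBz : ∀ x ∈ B, orderOf x = 2 → IsConj x z)
    (hCt : ∀ x ∈ Subgroup.centralizer ({t} : Set G), orderOf x = 2 → x ∉ B → IsConj x t) :
    Nat.card (PairsOver z t t) = 195 := by
  obtain ⟨hVC, hBC, hcomm, hinf, hsup⟩ := hVB
  have ht2 : t ^ 2 = 1 := by rw [← ht]; exact pow_orderOf_eq_one t
  have ht1 : t ≠ 1 := by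
    rintro rfl
    simp at ht
  have hinfm : ∀ x, x ∈ V → x ∈ B → x = 1 := by
    intro x h1 h2
    have : x ∈ V ⊓ B := ⟨h1, h2⟩
    rwa [hinf, mem_bot] at this
  have htB : t ∉ B := fun h => ht1 (hinfm t htV h)
  have hmemC : ∀ x, x ∈ Subgroup.centralizer ({t} : Set G) ↔ x * t = t * x := by
    intro x
    rw [Subgroup.mem_centralizer_iff]
    simp only [Set.mem_singleton_iff, forall_eq]
    exact eq_comm
  rw [← b_pairs_count hB]
  symm
  apply Nat.card_congr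
  have hfor : ∀ p : {p : G × G // (p.1 ∈ B ∧ p.1 ^ 2 = 1 ∧ p.1 ≠ 1) ∧ (p.2 ∈ B ∧ p.2 ^ 2 = 1 ∧ p.2 ≠ 1) ∧ (p.1 * p.2) ^ 15 = 1},
      IsConj z p.1.1 ∧ IsConj t (t * p.1.2) ∧ t ∈ zpowers (p.1.1 * (t * p.1.2)) := by
    rintro ⟨⟨u, b⟩, ⟨hu, hu2, hu1⟩, ⟨hb, hb2, hb1⟩, h15⟩
    simp only at hu hu2 hu1 hb hb2 hb1 h15 ⊢
    have htb := hcomm t htV b hb
    have htu := hcomm t htV u hu
    refine ⟨(hBz u hu (orderOf_eq_prime hu2 hu1)).symm, ?_, ?_⟩
    · have hv2 : (t * b) ^ 2 = 1 := by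
        rw [(show Commute t b from htb).mul_pow, ht2, hb2, one_mul]
      have hvB : t * b ∉ B := by
        intro h
        apply htB
        have : t = (t * b) * b⁻¹ := by group
        rw [this]
        exact B.mul_mem h (B.inv_mem hb)
      have hv1 : t * b ≠ 1 := fun h => hvB (h ▸ B.one_mem)
      exact (hCt (t * b) (Subgroup.mul_mem _ (hVC htV) (hBC hb)) (orderOf_eq_prime hv2 hv1) hvB).symm
    · refine ⟨(15 : ℤ), ?_⟩
      simp only
      have h1 : u * (t * b) = t * (u * b) := by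
        rw [← mul_assoc, ← htu, mul_assoc]
      have h2 : Commute t (u * b) := by
        show t * (u * b) = u * b * t
        rw [← mul_assoc, htu, mul_assoc, htb, mul_assoc]
      rw [zpow_ofNat, h1, h2.mul_pow, h15, mul_one]
      have : t ^ 15 = (t ^ 2) ^ 7 * t := by rw [← pow_mul, ← pow_succ]
      rw [this, ht2, one_pow, one_mul]
  refine Equiv.ofBijective (fun p => ⟨(p.1.1, t * p.1.2), hfor p⟩) ⟨?_, ?_⟩
  · rintro ⟨⟨u, b⟩, hp⟩ ⟨⟨u', b'⟩, hp'⟩ e
    have e1 : (u, t * b) = (u', t * b') := congrArg Subtype.val e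
    obtain ⟨rfl, e2⟩ := Prod.mk.inj e1
    have e3 : b = b' := mul_left_cancel e2
    subst e3
    rfl
  · rintro ⟨⟨u, v⟩, hu, hv, htm⟩
    simp only at hu hv htm
    have hou : orderOf u = 2 := by rw [← Cfsg.Agent.Lib.Involutions.BrauerFowler.isConj_orderOf hu, hz]
    have hov : orderOf v = 2 := by rw [← Cfsg.Agent.Lib.Involutions.BrauerFowler.isConj_orderOf hv, ht]
    have hu2 : u ^ 2 = 1 := by rw [← hou]; exact pow_orderOf_eq_one u
    have hv2 : v ^ 2 = 1 := by rw [← hov]; exact pow_orderOf_eq_one v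
    have hu1 : u ≠ 1 := by
      rintro rfl
      simp at hou
    obtain ⟨hut, hvt⟩ := conj_of_mem_zpowers hu2 hv2 htm ht2
    have huC : u ∈ Subgroup.centralizer ({t} : Set G) := (hmemC u).2 hut
    have hvC : v ∈ Subgroup.centralizer ({t} : Set G) := (hmemC v).2 hvt
    have huB : u ∈ B := by
      by_contra hn
      exact hzt (hu.trans (hCt u huC hou hn))
    have hvB : v ∉ B := fun hm => hzt ((hv.trans (hBz v hm hov)).symm)
    have hn : ∀ b ∈ B, ∀ a ∈ V, b * a * b⁻¹ ∈ V := by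
      intro b hb a ha
      rw [← hcomm a ha b hb, mul_assoc, mul_inv_cancel, mul_one]
      exact ha
    rw [← hsup] at hvC
    obtain ⟨w, hw, b, hb, rfl⟩ := exists_mul_of_sup hn hvC
    have hwb := hcomm w hw b hb
    have hwu := hcomm w hw u huB
    have h1 : u * (w * b) = w * (u * b) := by
      rw [← mul_assoc, ← hwu, mul_assoc]
    have hx : u * b ∈ B := B.mul_mem huB hb
    have hwx : Commute w (u * b) := by
      show w * (u * b) = u * b * w
      rw [← mul_assoc, hwu, mul_assoc, hwb, mul_assoc]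
    obtain ⟨m, hm⟩ := htm
    simp only at hm
    rw [h1, hwx.mul_zpow] at hm
    have hxV : (u * b) ^ m ∈ V := by
      have : (u * b) ^ m = (w ^ m)⁻¹ * t := by rw [← hm]; group
      rw [this]
      exact V.mul_mem (V.inv_mem (V.zpow_mem hw m)) htV
    have hxm : (u * b) ^ m = 1 := hinfm _ hxV (B.zpow_mem hx m)
    rw [hxm, mul_one] at hm
    have hw2 : w ^ (2 : ℤ) = 1 := by
      rw [zpow_ofNat]; exact hV2 w hw
    have hmodd : Odd m := by
      by_contra hne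
      rw [Int.not_odd_iff_even] at hne
      obtain ⟨j, rfl⟩ := hne
      apply ht1
      rw [← hm, ← two_mul, zpow_mul, hw2, one_zpow]
    obtain ⟨j, rfl⟩ := hmodd
    have hwt : w = t := by
      rw [← hm, zpow_add, zpow_mul, hw2, one_zpow, one_mul, zpow_one]
    subst hwt
    have hb2 : b ^ 2 = 1 := by
      have := hv2
      rw [(show Commute w b from hwb).mul_pow, ht2, one_mul] at this
      exact this
    have hb1 : b ≠ 1 := by
      rintro rfl
      apply hu1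
      rw [mul_one] at hxm
      have hu2' : u ^ (2 : ℤ) = 1 := by rw [zpow_ofNat]; exact hu2
      rw [zpow_add, zpow_mul, hu2', one_zpow, one_mul, zpow_one] at hxm
      exact hxm
    have hx15 : (u * b) ^ 15 = 1 := by
      rcases b_orders hB hx with h | h | h | h
      · rw [h, one_pow]
      · have h' : (u * b) ^ (2 : ℤ) = 1 := by rw [zpow_ofNat]; exact h
        rw [zpow_add, zpow_mul, h', one_zpow, one_mul, zpow_one] at hxm
        rw [hxm, one_pow]
      · rw [show 15 = 3 * 5 by norm_num, pow_mul, h, one_pow]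
      · rw [show 15 = 5 * 3 by norm_num, pow_mul, h, one_pow]
    exact ⟨⟨(u, b), ⟨huB, hu2, hu1⟩, ⟨hb, hb2, hb1⟩, hx15⟩, rfl⟩

end Cfsg.Agent.Lib.HJOrder.Tside
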