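import Cfsg.Agent.Lib.HJOrder.Local

set_option autoImplicit false
set_option linter.unusedSectionVars false
set_option linter.unusedVariables false
set_option linter.style.longLine false

namespace Cfsg.Agent.Lib.HJOrder.Zside

open Subgroup Cfsg.Agent.Lib.PGroups.ExtraGauss Cfsg.Agent.Lib.HJOrder.Basic
  Cfsg.Agent.Lib.HJOrder.Tau Cfsg.Agent.Lib.HJOrder.A5 Cfsg.Agent.Lib.HJOrder.Local
  Cfsg.Agent.Lib.Involutions.Thompson
open scoped commutatorElement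

variable {G : Type*} [Group G] [Finite G]

/-- The local data at `z`. -/
structure CData (Q K : Subgroup G) (z : G) : Prop where
  q : QData Q z
  n : ∀ g : G, g * z = z * g → ∀ x ∈ Q, g * x * g⁻¹ ∈ Q
  dec : ∀ g : G, g * z = z * g → ∃ y ∈ Q, ∃ k ∈ K, g = y * k
  kz : ∀ k ∈ K, k * z = z * k
  kq : ∀ k ∈ K, k ∈ Q → k = 1
  a5 : Nonempty (↥K ≃* AFive)

variable {Q K : Subgroup G} {z : G}

theorem CData.noncent (h : CData Q K z) {σ : G} (hσ : σ ∈ K) (hσ1 : σ ≠ 1) :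
    ∃ x ∈ Q, σ * x ≠ x * σ := by
  by_contra hall
  push Not at hall
  rcases h.q.cent σ hall with e | e
  · exact hσ1 e
  · apply h.q.z_ne
    rw [← e]
    exact h.kq σ hσ (e ▸ h.q.z_mem)

theorem CData.nn (h : CData Q K z) : NN ↥Q = 12 := by
  obtain ⟨σ, hσ, hσ1, hσ5⟩ := k_five h.a5
  have hσz := h.kz σ hσ
  have hv := h.n σ hσz
  refine (order_five h.q.setting h.q.center_card h.q.card (tauG Q σ hv) ?_ ?_ (tauG_z h.q hv hσz)).2
  · intro x
    apply Subtype.ext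
    simp only [tauG_coe]
    have e5 : σ ^ 5 = σ * σ * σ * σ * σ := by simp only [pow_succ, pow_zero, one_mul]
    calc _ = (σ * σ * σ * σ * σ) * (x : G) * (σ * σ * σ * σ * σ)⁻¹ := by group
      _ = x := by rw [← e5, hσ5]; simp
  · obtain ⟨x, hx, hxσ⟩ := h.noncent hσ hσ1
    refine ⟨⟨x, hx⟩, fun e => hxσ ?_⟩
    have h1 : σ * x * σ⁻¹ = x := congrArg Subtype.val e
    calc σ * x = σ * x * σ⁻¹ * σ := by group
      _ = x * σ := by rw [h1]

theorem CData.index_k (h : CData Q K z) {k : G} (hk : k ∈ K) (hk2 : k ^ 2 = 1) (hk1 : k ≠ 1) :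
    (FF h.q.setting (tauG Q k (h.n k (h.kz k hk))) (tauG_z h.q _ (h.kz k hk))).index = 4 := by
  obtain ⟨k', hk', hk'2, hne, h5⟩ := k_pair h.a5 hk hk2 hk1
  have hv := h.n k (h.kz k hk)
  have hv' := h.n k' (h.kz k' hk')
  refine index_eq_four h.q.setting h.q.center_card h.q.card (tauG Q k hv) (tauG Q k' hv')
    (tauG_invol hv hk2) (tauG_invol hv' hk'2) (tauG_z h.q hv (h.kz k hk)) (tauG_z h.q hv' (h.kz k' hk')) ?_ ?_
  · intro x
    apply Subtype.ext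
    simp only [tauG_coe]
    have e5 : (k * k') ^ 5 = (k * k') * (k * k') * (k * k') * (k * k') * (k * k') := by simp only [pow_succ, pow_zero, one_mul]
    calc _ = ((k * k') * (k * k') * (k * k') * (k * k') * (k * k')) * (x : G) * ((k * k') * (k * k') * (k * k') * (k * k') * (k * k'))⁻¹ := by group
      _ = x := by rw [← e5, h5]; simp
  · obtain ⟨x, hx, hxσ⟩ := h.noncent (K.mul_mem hk hk') hne
    refine ⟨⟨x, hx⟩, fun e => hxσ ?_⟩
    have h1 : k * (k' * x * k'⁻¹) * k⁻¹ = x := congrArg Subtype.val e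
    calc k * k' * x = k * (k' * x * k'⁻¹) * k⁻¹ * (k * k') := by group
      _ = x * (k * k') := by rw [h1]

theorem CData.dec_facts (h : CData Q K z) {y k : G} (hy : y ∈ Q) (hk : k ∈ K) (hv2 : (y * k) ^ 2 = 1) :
    k ^ 2 = 1 ∧ k * y * k⁻¹ = y⁻¹ := by
  have hw := h.n k (h.kz k hk) y hy
  have h1 : k ^ 2 = (y * (k * y * k⁻¹))⁻¹ := by
    apply eq_inv_of_mul_eq_one_right
    rw [← hv2, sq, sq]
    group
  have h2 : k ^ 2 = 1 := h.kq _ (K.pow_mem hk 2) (by rw [h1]; exact Q.inv_mem (Q.mul_mem hy hw))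
  refine ⟨h2, ?_⟩
  rw [h2] at h1
  have h3 := (inv_eq_one.mp h1.symm)
  exact eq_inv_of_mul_eq_one_right h3

theorem CData.FF_eq (h : CData Q K z) {y k : G} (hy : y ∈ Q) (hk : k ∈ K) (hvz : (y * k) * z = z * (y * k)) :
    FF h.q.setting (tauG Q (y * k) (h.n _ hvz)) (tauG_z h.q _ hvz) =
      FF h.q.setting (tauG Q k (h.n k (h.kz k hk))) (tauG_z h.q _ (h.kz k hk)) := by
  ext x
  rw [mem_FF_tau h.q _ hvz, mem_FF_tau h.q _ (h.kz k hk)]
  have hzz : z * z = 1 := by rw [← sq, h.q.z_sq]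
  have hw := h.n k (h.kz k hk) x x.2
  have hconj : y * k * (x : G) * (y * k)⁻¹ = y * (k * x * k⁻¹) * y⁻¹ := by group
  rw [hconj]
  generalize k * (x : G) * k⁻¹ = w at hw
  rcases h.q.comm y hy w hw with e | e
  · have e' : y * w * y⁻¹ = w := by
      rw [commutatorElement_def] at e
      exact mul_inv_eq_one.mp e
    rw [e']
  · have e' : y * w * y⁻¹ = w * z := by
      rw [commutatorElement_def] at e
      have := mul_inv_eq_iff_eq_mul.mp e
      rw [this, h.q.central w hw]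
    rw [e']
    constructor
    · rintro (h1 | h1)
      · right
        rw [← h1, mul_assoc, hzz, mul_one]
      · left
        exact mul_right_cancel h1
    · rintro (h1 | h1)
      · right
        rw [h1]
      · left
        rw [h1, mul_assoc, hzz, mul_one]

theorem CData.index_v (h : CData Q K z) {v : G} (hvz : v * z = z * v) (hv2 : v ^ 2 = 1) (hvQ : v ∉ Q) :
    (FF h.q.setting (tauG Q v (h.n v hvz)) (tauG_z h.q _ hvz)).index = 4 := by
  obtain ⟨y, hy, k, hk, rfl⟩ := h.dec v hvz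
  rw [h.FF_eq hy hk hvz]
  refine h.index_k hk (h.dec_facts hy hk hv2).1 ?_
  rintro rfl
  apply hvQ
  rwa [mul_one]

theorem CData.card_S (h : CData Q K z) {k : G} (hk : k ∈ K) (hk2 : k ^ 2 = 1) (hk1 : k ≠ 1) :
    Nat.card {y : G // y ∈ Q ∧ k * y * k⁻¹ = y⁻¹} = 8 := by
  have hkz := h.kz k hk
  have hv := h.n k hkz
  rw [← card_inv h.q.setting h.q.card (tauG Q k hv) (tauG_invol hv hk2) (tauG_z h.q hv hkz) (h.index_k hk hk2 hk1)]
  apply Nat.card_congr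
  exact ⟨fun y => ⟨⟨y.1, y.2.1⟩, Subtype.ext y.2.2⟩, fun y => ⟨y.1.1, y.1.2, congrArg Subtype.val y.2⟩,
    fun _ => rfl, fun _ => rfl⟩

theorem CData.card_T (h : CData Q K z) {v : G} (hvz : v * z = z * v) (hv2 : v ^ 2 = 1) (hvQ : v ∉ Q) :
    Nat.card {u : G // u ∈ Q ∧ u ^ 2 = 1 ∧ v * u * v⁻¹ ≠ u ∧ v * u * v⁻¹ ≠ u * z} = 8 := by
  have hv := h.n v hvz
  rw [← card_out_F h.q.setting h.q.center_card h.q.card (tauG Q v hv) (tauG_invol hv hv2) (tauG_z h.q hv hvz)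
    h.nn (h.index_v hvz hv2 hvQ)]
  apply Nat.card_congr
  refine ⟨fun u => ⟨⟨u.1, u.2.1⟩, Subtype.ext u.2.2.1, ?_⟩, fun u => ⟨u.1.1, u.1.2, congrArg Subtype.val u.2.1, ?_, ?_⟩,
    fun _ => rfl, fun _ => rfl⟩
  · rw [mem_FF_tau h.q hv hvz]
    rintro (e | e)
    · exact u.2.2.2.1 e
    · exact u.2.2.2.2 e
  · intro e
    exact u.2.2 ((mem_FF_tau h.q hv hvz _).2 (Or.inl e))
  · intro e
    exact u.2.2 ((mem_FF_tau h.q hv hvz _).2 (Or.inr e))

/-- The involutions of `C(z)` outside `Q`. -/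
theorem CData.card_I (h : CData Q K z) :
    Nat.card {v : G // v * z = z * v ∧ v ^ 2 = 1 ∧ v ∉ Q} = 120 := by
  have h1 := card_sigma_const (fun k : {k : G // k ∈ K ∧ k ^ 2 = 1 ∧ k ≠ 1} =>
    {y : G // y ∈ Q ∧ k.1 * y * k.1⁻¹ = y⁻¹}) 8 (fun k => h.card_S k.2.1 k.2.2.1 k.2.2.2)
  rw [k_inv_count h.a5] at h1
  rw [show 120 = 15 * 8 by norm_num, ← h1]
  symm
  apply Nat.card_congr
  have hzz : z * z = 1 := by rw [← sq, h.q.z_sq]
  refine Equiv.ofBijective (fun p => ⟨p.2.1 * p.1.1, ?_, ?_, ?_⟩) ⟨?_, ?_⟩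
  · have h2 := h.kz _ p.1.2.1
    have h3 := h.q.central _ p.2.2.1
    rw [mul_assoc, h2, ← mul_assoc, h3, mul_assoc]
  · have hk2 := p.1.2.2.1
    have hy := p.2.2.2
    calc (p.2.1 * p.1.1) ^ 2 = p.2.1 * (p.1.1 * p.2.1 * p.1.1⁻¹) * p.1.1 ^ 2 := by rw [sq, sq]; group
      _ = 1 := by rw [hy, hk2]; group
  · intro hmem
    apply p.1.2.2.2
    apply h.kq _ p.1.2.1
    have : p.1.1 = p.2.1⁻¹ * (p.2.1 * p.1.1) := by group
    rw [this]
    exact Q.mul_mem (Q.inv_mem p.2.2.1) hmem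
  · rintro ⟨⟨k, hk⟩, ⟨y, hy⟩⟩ ⟨⟨k', hk'⟩, ⟨y', hy'⟩⟩ e
    have e1 : y * k = y' * k' := congrArg Subtype.val e
    have e2 : y'⁻¹ * y = k' * k⁻¹ := by
      calc y'⁻¹ * y = y'⁻¹ * (y * k) * k⁻¹ := by group
        _ = y'⁻¹ * (y' * k') * k⁻¹ := by rw [e1]
        _ = k' * k⁻¹ := by group
    have e3 : k' * k⁻¹ = 1 := h.kq _ (K.mul_mem hk'.1 (K.inv_mem hk.1)) (by
      rw [← e2]; exact Q.mul_mem (Q.inv_mem hy'.1) hy.1)
    have e4 : k' = k := mul_inv_eq_one.mp e3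
    subst e4
    have e5 : y = y' := mul_right_cancel e1
    subst e5
    rfl
  · rintro ⟨v, hvz, hv2, hvQ⟩
    obtain ⟨y, hy, k, hk, rfl⟩ := h.dec v hvz
    have hf := h.dec_facts hy hk hv2
    refine ⟨⟨⟨k, hk, hf.1, ?_⟩, ⟨y, hy, hf.2⟩⟩, rfl⟩
    rintro rfl
    apply hvQ
    rwa [mul_one]

theorem pair_forward (h : CData Q K z) {t u v : G}
    (hQz : ∀ x ∈ Q, orderOf x = 2 → IsConj x z)
    (hCz : ∀ x : G, x * z = z * x → orderOf x = 2 → x ∉ Q → IsConj x t)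
    (hvz : v * z = z * v) (hv2 : v ^ 2 = 1) (hvQ : v ∉ Q)
    (hu : u ∈ Q) (hu2 : u ^ 2 = 1) (hu1 : v * u * v⁻¹ ≠ u) (hu3 : v * u * v⁻¹ ≠ u * z) :
    IsConj z u ∧ IsConj t v ∧ z ∈ zpowers (u * v) := by
  have hune : u ≠ 1 := by
    rintro rfl
    exact hu1 (by group)
  have hvne : v ≠ 1 := by
    rintro rfl
    exact hvQ (one_mem _)
  have hv := h.n v hvz
  refine ⟨(hQz u hu (orderOf_eq_prime hu2 hune)).symm, (hCz v hvz (orderOf_eq_prime hv2 hvne) hvQ).symm, ?_⟩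
  have huF : (⟨u, hu⟩ : ↥Q) ∉ FF h.q.setting (tauG Q v hv) (tauG_z h.q hv hvz) := by
    rw [mem_FF_tau h.q hv hvz]
    rintro (e | e)
    · exact hu1 e
    · exact hu3 e
  have h1 := mul_tau_sq h.q.setting h.q.center_card h.q.card (tauG Q v hv) (tauG_invol hv hv2) (tauG_z h.q hv hvz)
    h.nn (h.index_v hvz hv2 hvQ) (u := ⟨u, hu⟩) (Subtype.ext hu2) huF
  have h2 : u * (v * u * v⁻¹) * (u * (v * u * v⁻¹)) = z := congrArg Subtype.val h1
  have hvi : v⁻¹ = v := inv_eq_of_mul_eq_one_right (by rw [← sq, hv2])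
  rw [hvi] at h2
  refine ⟨(4 : ℤ), ?_⟩
  simp only
  rw [zpow_ofNat, ← h2]
  simp only [pow_succ, pow_zero, one_mul, mul_assoc]

theorem pair_back (h : CData Q K z) {t u v : G} (ht : orderOf t = 2) (hzt : ¬ IsConj z t)
    (hQz : ∀ x ∈ Q, orderOf x = 2 → IsConj x z)
    (hCz : ∀ x : G, x * z = z * x → orderOf x = 2 → x ∉ Q → IsConj x t)
    (hu : IsConj z u) (hv : IsConj t v) (hzm : z ∈ zpowers (u * v)) :
    v * z = z * v ∧ v ^ 2 = 1 ∧ v ∉ Q ∧ u ∈ Q ∧ u ^ 2 = 1 ∧ v * u * v⁻¹ ≠ u ∧ v * u * v⁻¹ ≠ u * z := by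
  have hoz : orderOf z = 2 := orderOf_eq_prime h.q.z_sq h.q.z_ne
  have hou : orderOf u = 2 := by rw [← Cfsg.Agent.Lib.Involutions.BrauerFowler.isConj_orderOf hu, hoz]
  have hov : orderOf v = 2 := by rw [← Cfsg.Agent.Lib.Involutions.BrauerFowler.isConj_orderOf hv, ht]
  have hu2 : u ^ 2 = 1 := by rw [← hou]; exact pow_orderOf_eq_one u
  have hv2 : v ^ 2 = 1 := by rw [← hov]; exact pow_orderOf_eq_one v
  obtain ⟨huz, hvz⟩ := conj_of_mem_zpowers hu2 hv2 hzm h.q.z_sq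
  have hvQ : v ∉ Q := fun hm => hzt ((hv.trans (hQz v hm hov)).symm)
  have huQ : u ∈ Q := by
    by_contra hn
    exact hzt (hu.trans (hCz u huz hou hn))
  have hvi : v⁻¹ = v := inv_eq_of_mul_eq_one_right (by rw [← sq, hv2])
  have hui : u⁻¹ = u := inv_eq_of_mul_eq_one_right (by rw [← sq, hu2])
  refine ⟨hvz, hv2, hvQ, huQ, hu2, ?_, ?_⟩
  · intro e
    have hc : u * v = v * u := by
      calc u * v = (v * u * v⁻¹) * v := by rw [e]
        _ = v * u := by group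
    have hs : (u * v) ^ 2 = 1 := by
      rw [(show Commute u v from hc).mul_pow, hu2, hv2, one_mul]
    have hcase : z = 1 ∨ z = u * v := by
      by_cases hw : u * v = 1
      · rw [hw] at hzm
        left
        simpa using hzm
      · have h2 : Nat.card (zpowers (u * v)) = 2 := by
          rw [Nat.card_zpowers]
          exact orderOf_eq_prime hs hw
        exact eq_of_card_two _ h2 hw (mem_zpowers _) hzm
    rcases hcase with e1 | e1
    · exact h.q.z_ne e1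
    · apply hvQ
      have : v = u⁻¹ * z := by rw [e1]; group
      rw [this]
      exact Q.mul_mem (Q.inv_mem huQ) h.q.z_mem
  · intro e
    have hv' := h.n v hvz
    have hmem : (⟨u, huQ⟩ : ↥Q) ∈ FF h.q.setting (tauG Q v hv') (tauG_z h.q hv' hvz) := by
      rw [mem_FF_tau h.q hv' hvz]
      exact Or.inr e
    have h1 := tau_inv h.q.setting h.q.card (tauG Q v hv') (tauG_invol hv' hv2) (tauG_z h.q hv' hvz)
      (h.index_v hvz hv2 hvQ) hmem
    have h2 : v * u * v⁻¹ = u⁻¹ := congrArg Subtype.val h1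
    rw [e, hui] at h2
    apply h.q.z_ne
    exact (mul_left_cancel (a := u) (by rw [h2, mul_one]))

/-- The first count in the Thompson formula. -/
theorem CData.card_pairs (h : CData Q K z) {t : G} (ht : orderOf t = 2) (hzt : ¬ IsConj z t)
    (hQz : ∀ x ∈ Q, orderOf x = 2 → IsConj x z)
    (hCz : ∀ x : G, x * z = z * x → orderOf x = 2 → x ∉ Q → IsConj x t) :
    Nat.card (PairsOver z t z) = 960 := by
  have h1 := card_sigma_const (fun v : {v : G // v * z = z * v ∧ v ^ 2 = 1 ∧ v ∉ Q} =>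
    {u : G // u ∈ Q ∧ u ^ 2 = 1 ∧ v.1 * u * v.1⁻¹ ≠ u ∧ v.1 * u * v.1⁻¹ ≠ u * z}) 8
    (fun v => h.card_T v.2.1 v.2.2.1 v.2.2.2)
  rw [h.card_I] at h1
  rw [show 960 = 120 * 8 by norm_num, ← h1]
  symm
  apply Nat.card_congr
  refine Equiv.ofBijective (fun p => ⟨(p.2.1, p.1.1), pair_forward h hQz hCz p.1.2.1 p.1.2.2.1 p.1.2.2.2 p.2.2.1 p.2.2.2.1
    p.2.2.2.2.1 p.2.2.2.2.2⟩) ⟨?_, ?_⟩
  · rintro ⟨⟨v, hv⟩, ⟨u, hu⟩⟩ ⟨⟨v', hv'⟩, ⟨u', hu'⟩⟩ e
    have e1 : (u, v) = (u', v') := congrArg Subtype.val e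
    obtain ⟨rfl, rfl⟩ := Prod.mk.inj e1
    rfl
  · rintro ⟨⟨u, v⟩, hu, hv, hzm⟩
    obtain ⟨h1, h2, h3, h4, h5, h6, h7⟩ := pair_back h ht hzt hQz hCz hu hv hzm
    exact ⟨⟨⟨v, h1, h2, h3⟩, ⟨u, h4, h5, h6, h7⟩⟩, rfl⟩

end Cfsg.Agent.Lib.HJOrder.Zside
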